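import Cfsg.Agent.Lib.Helper41.Bin.Even
import Cfsg.Agent.Lib.Helper41.Bin.PSL

/-!
# S3266: construction of an involution with prescribed traces
-/

set_option autoImplicit false

namespace Cfsg.Agent.Lib.Helper41.OddGraph

open Cfsg.Agent.Lib.Helper41.Bin Matrix

variable {F : Type*} [Field F]

local notation "SL2" => Matrix.SpecialLinearGroup (Fin 2) F

/-- polynomial identity behind `exists_Z` -/
theorem det_identity (x0 x1 x2 y0 y1 y2 ε a γ : F) (hx : x0 * (-x0) - x1 * x2 = 1)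
    (hy : y0 * (-y0) - y1 * y2 = 1) (hε : ε * ε = 1)
    (h : a ^ 2 * (2 - ε * (2 * x0 * y0 + x1 * y2 + x2 * y1)) +
      γ ^ 2 * (4 - (2 * x0 * y0 + x1 * y2 + x2 * y1) ^ 2) = 1) :
    (a * (x0 + ε * y0) + γ * (x1 * y2 - x2 * y1)) * (-(a * (x0 + ε * y0) + γ * (x1 * y2 - x2 * y1))) -
      (a * (x1 + ε * y1) + γ * (2 * (x0 * y1 - x1 * y0))) *
        (a * (x2 + ε * y2) + γ * (2 * (x2 * y0 - x0 * y2))) = 1 := by
  grind

theorem tr2_mul_of_zero (X Y : SL2) (hX : tr2 X = 0) (hY : tr2 Y = 0) :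
    tr2 (X * Y) = 2 * X 0 0 * Y 0 0 + X 0 1 * Y 1 0 + X 1 0 * Y 0 1 := by
  unfold tr2 at *
  rw [mul00, mul11]
  have h1 : X 1 1 = -X 0 0 := by linear_combination hX
  have h2 : Y 1 1 = -Y 0 0 := by linear_combination hY
  rw [h1, h2]; ring

/-- `Z = a (X + ε Y) + γ (XY - YX)` -/
theorem exists_Z (X Y : SL2) (hX : tr2 X = 0) (hY : tr2 Y = 0) (ε a γ : F) (hε : ε * ε = 1)
    (h : a ^ 2 * (2 - ε * tr2 (X * Y)) + γ ^ 2 * (4 - tr2 (X * Y) ^ 2) = 1) :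
    ∃ Z : SL2, tr2 Z = 0 ∧ tr2 (X * Z) = -a * (2 - ε * tr2 (X * Y)) ∧
      tr2 (Z * Y) = -ε * a * (2 - ε * tr2 (X * Y)) := by
  have h1 : X 1 1 = -X 0 0 := by unfold tr2 at hX; linear_combination hX
  have h2 : Y 1 1 = -Y 0 0 := by unfold tr2 at hY; linear_combination hY
  have hx := det_eq X
  have hy := det_eq Y
  rw [h1] at hx
  rw [h2] at hy
  rw [tr2_mul_of_zero X Y hX hY] at h ⊢
  refine ⟨mkS _ _ _ _ (det_identity (X 0 0) (X 0 1) (X 1 0) (Y 0 0) (Y 0 1) (Y 1 0) ε a γ hx hy hε h),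
    ?_, ?_, ?_⟩
  · unfold tr2
    rw [mkS00, mkS11]; ring
  · unfold tr2
    rw [mul00, mul11, mkS00, mkS11, mkS01, mkS10, h1]
    grind
  · unfold tr2
    rw [mul00, mul11, mkS00, mkS11, mkS01, mkS10, h2]
    grind

end Cfsg.Agent.Lib.Helper41.OddGraph
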