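import Cfsg.Agent.Lib.Helper41.OddGraph.Main

/-!
# S3266: group level statements
-/

set_option autoImplicit false

namespace Cfsg.Agent.Lib.Helper41.OddGraph

open Cfsg.Agent.Lib.Helper41 Cfsg.Agent.Lib.Helper41.Bin Cfsg.Agent.Lib.Helper41.Dickson Matrix

variable {F : Type*} [Field F] [Fintype F]

local notation "SL2" => Matrix.SpecialLinearGroup (Fin 2) F
local notation "PSL2" => Matrix.ProjectiveSpecialLinearGroup (Fin 2) F

omit [Fintype F] in
theorem negOne_eq_one (h2 : (2 : F) = 0) : (negOne : SL2) = 1 := by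
  apply sl2_ext <;> simp only [negOne, mkS00, mkS01, mkS10, mkS11, one00, one01, one10, one11]
  · linear_combination -h2
  · linear_combination -h2

omit [Fintype F] in
theorem orderOf_pr_even (h2 : (2 : F) = 0) {Z : SL2} (hz : tr2 Z = 0) (h1 : Z ≠ 1) :
    orderOf (pr F Z) = 2 := by
  apply orderOf_eq_prime
  · rw [pow_two, ← map_mul, sq_eq_one_of_tr2_zero h2 hz, map_one]
  · rw [Ne, pr_eq_one_iff, negOne_eq_one h2, or_self]
    exact h1

omit [Fintype F] in
theorem lift_even (h2 : (2 : F) = 0) {X : SL2} (h : orderOf (pr F X) = 2) : tr2 X = 0 ∧ X ≠ 1 := by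
  constructor
  · apply tr2_zero_of_sq h2
    have h3 := pow_orderOf_eq_one (pr F X)
    rw [h, pow_two, ← map_mul, pr_eq_one_iff, negOne_eq_one h2, or_self] at h3
    exact h3
  · rintro rfl
    rw [map_one, orderOf_one] at h
    norm_num at h

omit [Fintype F] in
theorem offdiag_even (h2 : (2 : F) = 0) {X : SL2} (h0 : tr2 X = 0) (h1 : X ≠ 1) :
    X 0 1 ≠ 0 ∨ X 1 0 ≠ 0 := by
  by_contra hcon
  push Not at hcon
  obtain ⟨hb, hc⟩ := hcon
  apply h1
  have hd := det_eq X
  unfold tr2 at h0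
  rw [hb, hc] at hd
  have e : X 1 1 = X 0 0 := by linear_combination h0 - X 0 0 * h2
  rw [e] at hd
  have h5 : (X 0 0 - 1) * (X 0 0 - 1) = 0 := by linear_combination hd - X 0 0 * h2 + h2
  have h6 : X 0 0 = 1 := by
    have := mul_self_eq_zero.1 h5
    linear_combination this
  apply sl2_ext <;> simp only [one00, one01, one10, one11]
  · exact h6
  · exact hb
  · exact hc
  · rw [e, h6]

theorem common_even (h2 : (2 : F) = 0) (X Y : SL2) (hX : tr2 X = 0) (hX1 : X ≠ 1) (hY : tr2 Y = 0)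
    (hY1 : Y ≠ 1) :
    ∃ Z : SL2, tr2 Z = 0 ∧ Z ≠ 1 ∧ Odd (orderOf (pr F (X * Z))) ∧ Odd (orderOf (pr F (Z * Y))) := by
  have hx := offdiag_even h2 hX hX1
  have hy := offdiag_even h2 hY hY1
  have key : ∀ Z : SL2, tr2 Z = 0 → Z ≠ 1 → tr2 (X * Z) ≠ 0 → tr2 (Z * Y) ≠ 0 →
      ∃ Z : SL2, tr2 Z = 0 ∧ Z ≠ 1 ∧ Odd (orderOf (pr F (X * Z))) ∧ Odd (orderOf (pr F (Z * Y))) :=
    fun Z h0 h1 h3 h4 => ⟨Z, h0, h1, odd_of_tr2_ne_zero h2 h3, odd_of_tr2_ne_zero h2 h4⟩
  unfold tr2 at hX hY
  by_cases h1 : X 1 0 ≠ 0 ∧ Y 1 0 ≠ 0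
  · apply key (uu 1)
    · simp only [tr2, uu, mkS00, mkS11]; linear_combination h2
    · exact uu_ne_one one_ne_zero
    · simp only [tr2, mul00, mul11, uu, mkS00, mkS01, mkS10, mkS11]
      intro h; apply h1.1; linear_combination h - hX
    · simp only [tr2, mul00, mul11, uu, mkS00, mkS01, mkS10, mkS11]
      intro h; apply h1.2; linear_combination h - hY
  by_cases h3 : X 0 1 ≠ 0 ∧ Y 0 1 ≠ 0
  · apply key (ll 1)
    · simp only [tr2, ll, mkS00, mkS11]; linear_combination h2
    · intro h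
      have := congrArg (fun A : SL2 => A 1 0) h
      simp only [ll, mkS10, one10] at this
      exact one_ne_zero this
    · simp only [tr2, mul00, mul11, ll, mkS00, mkS01, mkS10, mkS11]
      intro h; apply h3.1; linear_combination h - hX
    · simp only [tr2, mul00, mul11, ll, mkS00, mkS01, mkS10, mkS11]
      intro h; apply h3.2; linear_combination h - hY
  · apply key (mkS 0 1 1 0 (by linear_combination -h2))
    · simp only [tr2, mkS00, mkS11]; ring
    · intro h
      have := congrArg (fun A : SL2 => A 1 0) h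
      simp only [mkS10, one10] at this
      exact one_ne_zero this
    · simp only [tr2, mul00, mul11, mkS00, mkS01, mkS10, mkS11]
      intro h
      grind
    · simp only [tr2, mul00, mul11, mkS00, mkS01, mkS10, mkS11]
      intro h
      grind

theorem common_nbr (hq : 3 < Fintype.card F) (x y : PSL2) (hx : orderOf x = 2) (hy : orderOf y = 2) :
    ∃ z : PSL2, orderOf z = 2 ∧ Odd (orderOf (x * z)) ∧ Odd (orderOf (z * y)) := by
  obtain ⟨X, rfl⟩ := pr_surj x
  obtain ⟨Y, rfl⟩ := pr_surj y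
  by_cases h2 : (2 : F) = 0
  · obtain ⟨hX, hX1⟩ := lift_even h2 hx
    obtain ⟨hY, hY1⟩ := lift_even h2 hy
    obtain ⟨Z, h0, h1, h3, h4⟩ := common_even h2 X Y hX hX1 hY hY1
    exact ⟨pr F Z, orderOf_pr_even h2 h0 h1, by rwa [← map_mul], by rwa [← map_mul]⟩
  · obtain ⟨Z, h0, h3, h4⟩ := common_odd h2 hq X Y (tr2_zero_of_invol h2 X hx) (tr2_zero_of_invol h2 Y hy)
    exact ⟨pr F Z, orderOf_pr_of_tr2_zero h2 h0, by rwa [← map_mul], by rwa [← map_mul]⟩

theorem invol_conj_all (a b : PSL2) (ha : orderOf a = 2) (hb : orderOf b = 2) : IsConj a b := by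
  by_cases h2 : (2 : F) = 0
  · obtain ⟨A, rfl⟩ := pr_surj a
    obtain ⟨B, rfl⟩ := pr_surj b
    obtain ⟨hA, hA1⟩ := lift_even h2 ha
    obtain ⟨hB, hB1⟩ := lift_even h2 hb
    apply (pr F).map_isConj
    apply invol_conj h2
    · exact orderOf_eq_prime (by rw [pow_two]; exact sq_eq_one_of_tr2_zero h2 hA) hA1
    · exact orderOf_eq_prime (by rw [pow_two]; exact sq_eq_one_of_tr2_zero h2 hB) hB1
  · exact invol_conj_odd h2 a b ha hb

theorem exists_nonadj (hq : 3 < Fintype.card F) :
    ∃ x y : PSL2, orderOf x = 2 ∧ orderOf y = 2 ∧ x ≠ y ∧ ¬ Odd (orderOf (x * y)) := by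
  classical
  have fin : ∀ x y : PSL2, orderOf x = 2 → orderOf y = 2 → orderOf (x * y) = 2 →
      ∃ x y : PSL2, orderOf x = 2 ∧ orderOf y = 2 ∧ x ≠ y ∧ ¬ Odd (orderOf (x * y)) := by
    intro x y hx hy hxy
    refine ⟨x, y, hx, hy, ?_, ?_⟩
    · rintro rfl
      have := pow_orderOf_eq_one x
      rw [hx, pow_two] at this
      rw [this, orderOf_one] at hxy
      norm_num at hxy
    · rw [hxy]; decide
  by_cases h2 : (2 : F) = 0
  · obtain ⟨b, hb⟩ : ∃ s : F, s ∉ ({0, 1} : Finset F) := by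
      by_contra hcon
      push Not at hcon
      have h1 : (Finset.univ : Finset F) ⊆ {0, 1} := fun a _ => hcon a
      have h2 := Finset.card_le_card h1
      have h3 : ({0, 1} : Finset F).card ≤ 2 := Finset.card_le_two
      rw [Finset.card_univ] at h2
      omega
    simp only [Finset.mem_insert, Finset.mem_singleton, not_or] at hb
    have htr : ∀ c : F, tr2 (uu c) = 0 := by
      intro c
      simp only [tr2, uu, mkS00, mkS11]; linear_combination h2
    apply fin (pr F (uu 1)) (pr F (uu b))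
    · exact orderOf_pr_even h2 (htr _) (uu_ne_one one_ne_zero)
    · exact orderOf_pr_even h2 (htr _) (uu_ne_one hb.1)
    · rw [← map_mul, uu_add]
      apply orderOf_pr_even h2 (htr _) (uu_ne_one _)
      intro h
      apply hb.2
      linear_combination h - h2
  · obtain ⟨a, b, hab⟩ := exists_quad (-1 : F) 0 (-1) (by
      have h4 : (4 : F) = 2 * 2 := by norm_num
      have : (4 : F) ≠ 0 := by rw [h4]; exact mul_ne_zero h2 h2
      intro h
      apply this
      linear_combination -h)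
    apply fin (pr F (mkS 0 1 (-1) 0 (by ring))) (pr F (mkS a b b (-a) (by linear_combination hab)))
    · apply orderOf_pr_of_tr2_zero h2
      simp only [tr2, mkS00, mkS11]; ring
    · apply orderOf_pr_of_tr2_zero h2
      simp only [tr2, mkS00, mkS11]; ring
    · rw [← map_mul]
      apply orderOf_pr_of_tr2_zero h2
      simp only [tr2, mul00, mul11, mkS00, mkS01, mkS10, mkS11]; ring

end Cfsg.Agent.Lib.Helper41.OddGraph
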