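import Cfsg.Agent.Lib.Helper41.Bin.SL2
import Cfsg.Agent.Lib.Helper41.Dickson.SubfieldGroups

/-!
# S3266: the number theoretic lemma for `q ≡ 3 mod 4`
-/

set_option autoImplicit false

namespace Cfsg.Agent.Lib.Helper41.OddGraph

open Cfsg.Agent.Lib.Helper41.Bin Cfsg.Agent.Lib.Helper41.Dickson

variable {F : Type*} [Field F] [Fintype F]

theorem isSquare_neg_of_not (hm1 : ¬ IsSquare (-1 : F)) {a : F} (ha : ¬ IsSquare a) : IsSquare (-a) := by
  have := isSquare_div_of_not_isSquare ha hm1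
  rwa [div_neg, div_one] at this

theorem exists_beta (hm1 : ¬ IsSquare (-1 : F)) (hq : 3 < Fintype.card F) (τ : F)
    (hτ : ¬ IsSquare (τ ^ 2 - 4)) :
    ∃ β : F, β ≠ 0 ∧ ¬ IsSquare ((β ^ 2 + τ * β + 1) * (2 + τ)) := by
  classical
  have h2 : (2 : F) ≠ 0 := by
    intro h
    exact hm1 (isSquare_of_two_eq_zero h _)
  have hτ2 : τ ^ 2 - 4 ≠ 0 := by
    intro h; apply hτ; rw [h]; exact IsSquare.zero
  have hp : 2 + τ ≠ 0 := by
    intro h; apply hτ2
    linear_combination (τ - 2) * h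
  by_cases hs : IsSquare (2 + τ)
  · obtain ⟨s, hs⟩ := hs
    have hs0 : s ≠ 0 := by
      rintro rfl; apply hp; rw [hs]; ring
    obtain ⟨x, y, hxy⟩ := exists_quad (1 / (τ ^ 2 - 4)) 0 (1 / (τ ^ 2 - 4)) (by
      have : (4 : F) ≠ 0 := by
        have h4 : (4 : F) = 2 * 2 := by norm_num
        rw [h4]; exact mul_ne_zero h2 h2
      field_simp
      simpa using ⟨this, hτ2⟩)
    have hxy' : x ^ 2 + y ^ 2 = τ ^ 2 - 4 := by
      field_simp at hxy
      linear_combination hxy
    have hy0 : y ≠ 0 := by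
      rintro rfl
      apply hτ
      exact ⟨x, by linear_combination -hxy'⟩
    have hπ : ((x - τ) / 2) ^ 2 + τ * ((x - τ) / 2) + 1 = -(y / 2) ^ 2 := by
      field_simp
      linear_combination hxy'
    refine ⟨(x - τ) / 2, ?_, ?_⟩
    · intro h0
      rw [h0] at hπ
      apply hm1
      refine ⟨2 / y, ?_⟩
      field_simp
      field_simp at hπ
      linear_combination -hπ
    · rw [hπ, hs]
      rintro ⟨r, hr⟩
      apply hm1
      refine ⟨r / (y / 2 * s), ?_⟩
      field_simp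
      field_simp at hr
      linear_combination hr
  · obtain ⟨s, hs3⟩ : ∃ s : F, s ∉ ({0, 2 - τ, -2 - τ} : Finset F) := by
      by_contra hcon
      push Not at hcon
      have h1 : (Finset.univ : Finset F) ⊆ {0, 2 - τ, -2 - τ} := fun a _ => hcon a
      have h2 := Finset.card_le_card h1
      have h3 : ({0, 2 - τ, -2 - τ} : Finset F).card ≤ 3 := Finset.card_le_three
      rw [Finset.card_univ] at h2
      omega
    simp only [Finset.mem_insert, Finset.mem_singleton, not_or] at hs3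
    obtain ⟨hs0, hs1, hs2⟩ := hs3
    have hπ : ((2 - τ - s) * (2 + τ + s) / (4 * s)) ^ 2 + τ * ((2 - τ - s) * (2 + τ + s) / (4 * s)) + 1
        = ((s + (4 - τ ^ 2) / s) / 4) ^ 2 := by
      have : (4 : F) ≠ 0 := by
        have h4 : (4 : F) = 2 * 2 := by norm_num
        rw [h4]; exact mul_ne_zero h2 h2
      field_simp
      ring
    have h4 : (4 : F) ≠ 0 := by
      have h4 : (4 : F) = 2 * 2 := by norm_num
      rw [h4]; exact mul_ne_zero h2 h2
    refine ⟨(2 - τ - s) * (2 + τ + s) / (4 * s), ?_, ?_⟩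
    · apply div_ne_zero
      · apply mul_ne_zero
        · intro h; apply hs1; linear_combination -h
        · intro h; apply hs2; linear_combination h
      · exact mul_ne_zero h4 hs0
    · have hv : (s + (4 - τ ^ 2) / s) / 4 ≠ 0 := by
        intro hv
        rw [hv] at hπ
        apply hτ
        refine ⟨2 * ((2 - τ - s) * (2 + τ + s) / (4 * s)) + τ, ?_⟩
        linear_combination -4 * hπ
      rw [hπ]
      rintro ⟨r, hr⟩
      apply hs
      refine ⟨r / ((s + (4 - τ ^ 2) / s) / 4), ?_⟩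
      rw [div_mul_div_comm, ← hr, eq_div_iff (mul_ne_zero hv hv)]
      ring

theorem exists_eps_u (hm1 : ¬ IsSquare (-1 : F)) (hq : 3 < Fintype.card F) (τ : F)
    (hτ : ¬ IsSquare (τ ^ 2 - 4)) :
    ∃ ε u : F, ε * ε = 1 ∧ u ≠ 0 ∧
      ¬ IsSquare (((ε * u ^ 2) ^ 2 + τ * (ε * u ^ 2) + 1) * (2 + ε * τ)) := by
  obtain ⟨β, hβ0, hβ⟩ := exists_beta hm1 hq τ hτ
  have hτ2 : τ ^ 2 - 4 ≠ 0 := by
    intro h; apply hτ; rw [h]; exact IsSquare.zero
  by_cases hs : IsSquare β
  · obtain ⟨u, rfl⟩ := hs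
    refine ⟨1, u, by ring, ?_, ?_⟩
    · rintro rfl; exact hβ0 (by ring)
    · convert hβ using 2
      ring
  · obtain ⟨u, hu⟩ := isSquare_neg_of_not hm1 hs
    have hβu : β = -1 * u ^ 2 := by linear_combination -hu
    refine ⟨-1, u, by ring, ?_, ?_⟩
    · rintro rfl; apply hβ0; rw [hβu]; ring
    · rw [← hβu]
      obtain ⟨m, hm⟩ := isSquare_neg_of_not hm1 hτ
      have hn : 2 - τ ≠ 0 := by
        intro h; apply hτ2
        linear_combination (-τ - 2) * h
      rintro ⟨r, hr⟩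
      apply hβ
      refine ⟨r * m / (2 - τ), ?_⟩
      field_simp
      have e1 : r ^ 2 * m ^ 2 = (r * r) * (m * m) := by ring
      rw [e1, ← hr, ← hm]
      ring

end Cfsg.Agent.Lib.Helper41.OddGraph
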