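import Cfsg.Agent.Lib.Helper41.OddGraph.Constr
import Cfsg.Agent.Lib.Helper41.OddGraph.NumThy
import Cfsg.Agent.Lib.Helper41.Dickson.Orders
import Cfsg.Agent.Lib.Helper41.Dickson.WitPSL
import Cfsg.Agent.Lib.Helper41.SL2Eigen

/-!
# S3266: any two involutions of `PSL₂(q)` have a common "odd" neighbour
-/

set_option autoImplicit false

namespace Cfsg.Agent.Lib.Helper41.OddGraph

open Cfsg.Agent.Lib.Helper41 Cfsg.Agent.Lib.Helper41.Bin Cfsg.Agent.Lib.Helper41.Dickson Matrix

variable {F : Type*} [Field F] [Fintype F]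

local notation "SL2" => Matrix.SpecialLinearGroup (Fin 2) F
local notation "PSL2" => Matrix.ProjectiveSpecialLinearGroup (Fin 2) F

theorem odd_of_tr2_two (h2 : (2 : F) ≠ 0) {W : SL2} (h : tr2 W = 2 ∨ tr2 W = -2) :
    Odd (orderOf (pr F W)) := by
  obtain ⟨p, hp, hchar⟩ := exists_char_prime F
  have hp2 : p ≠ 2 := by
    rintro rfl
    apply h2
    exact_mod_cast CharP.cast_eq_zero F 2
  have hpow : (pr F W) ^ p = 1 := by
    rcases h with h | h
    · rw [← map_pow, pow_char_of_tr2_two p h, map_one]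
    · have h1 : tr2 (negOne * W) = 2 := by rw [tr2_negOne_mul, h]; ring
      have h3 : pr F (negOne * W) = pr F W := by rw [map_mul, pr_negOne, one_mul]
      rw [← h3, ← map_pow, pow_char_of_tr2_two p h1, map_one]
  rcases (Nat.dvd_prime hp).1 (orderOf_dvd_of_pow_eq_one hpow) with h1 | h1
  · rw [h1]; exact odd_one
  · rw [h1]; exact hp.odd_of_ne_two hp2

theorem odd_of_split (hm1 : ¬ IsSquare (-1 : F)) {W : SL2} {u : F} (hu0 : u ≠ 0) (hu : u ≠ u⁻¹)
    (h : tr2 W = u + u⁻¹) : Odd (orderOf (pr F W)) := by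
  have hq : Fintype.card F % 4 = 3 := by
    by_contra hcon
    exact hm1 (FiniteField.isSquare_neg_one_iff.2 hcon)
  have key := (psl2_pow_eq_one_iff_eigen (L := F) W u hu0 hu (by
    rw [Matrix.trace_fin_two, ← h]; rfl) ((Fintype.card F - 1) / 2)).2 (by
    rw [← pow_mul]
    have : 2 * ((Fintype.card F - 1) / 2) = Fintype.card F - 1 := by omega
    rw [this]
    exact FiniteField.pow_card_sub_one_eq_one u hu0)
  have hodd : Odd ((Fintype.card F - 1) / 2) := by
    rw [Nat.odd_iff]; omega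
  exact hodd.of_dvd_nat (orderOf_dvd_of_pow_eq_one key)

theorem odd_of_tr2_ne_zero (h2 : (2 : F) = 0) {W : SL2} (h : tr2 W ≠ 0) :
    Odd (orderOf (pr F W)) := by
  have : Fact (Nat.Prime 2) := ⟨Nat.prime_two⟩
  have : CharP F 2 := by
    obtain ⟨p, hp, hchar⟩ := exists_char_prime F
    have : p ∣ 2 := (CharP.cast_eq_zero_iff F p 2).1 (by exact_mod_cast h2)
    have h := (Nat.prime_dvd_prime_iff_eq hp Nat.prime_two).1 this
    subst h
    exact hchar
  have hq : Fintype.card F % 2 = 0 :=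
    FiniteField.even_card_of_char_two (CharP.ringChar_of_prime_eq_zero Nat.prime_two (by exact_mod_cast h2))
  have hq1 : 1 < Fintype.card F := Fintype.one_lt_card
  have hg : Nat.gcd 2 (Fintype.card F - 1) = 1 := by
    have : Odd (Fintype.card F - 1) := by rw [Nat.odd_iff]; omega
    exact (Nat.coprime_two_left).2 this
  rcases psl2_orderOf_dvd 2 (pr F W) with h1 | h1 | h1
  · exfalso
    apply h
    have h3 : (pr F W) ^ 2 = 1 := orderOf_dvd_iff_pow_eq_one.1 h1
    rw [pow_two, ← map_mul, pr_eq_one_iff] at h3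
    have hn : (negOne : SL2) = 1 := by
      apply sl2_ext <;> simp only [negOne, mkS00, mkS01, mkS10, mkS11, one00, one01, one10, one11]
      · linear_combination -h2
      · linear_combination -h2
    rw [hn, or_self] at h3
    exact tr2_zero_of_sq h2 h3
  · rw [hg, Nat.div_one] at h1
    have : Odd (Fintype.card F - 1) := by rw [Nat.odd_iff]; omega
    exact this.of_dvd_nat h1
  · rw [hg, Nat.div_one] at h1
    have : Odd (Fintype.card F + 1) := by rw [Nat.odd_iff]; omega
    exact this.of_dvd_nat h1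

theorem common_odd (h2 : (2 : F) ≠ 0) (hq : 3 < Fintype.card F) (X Y : SL2) (hX : tr2 X = 0)
    (hY : tr2 Y = 0) :
    ∃ Z : SL2, tr2 Z = 0 ∧ Odd (orderOf (pr F (X * Z))) ∧ Odd (orderOf (pr F (Z * Y))) := by
  have triv : Odd (orderOf (pr F (X * Y))) →
      ∃ Z : SL2, tr2 Z = 0 ∧ Odd (orderOf (pr F (X * Z))) ∧ Odd (orderOf (pr F (Z * Y))) := by
    intro h
    refine ⟨X, hX, ?_, h⟩
    rw [sq_of_tr2_zero hX, pr_negOne, orderOf_one]
    exact odd_one
  set τ := tr2 (X * Y) with hτ
  by_cases h4 : τ ^ 2 - 4 = 0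
  · apply triv
    apply odd_of_tr2_two h2
    have : (τ - 2) * (τ + 2) = 0 := by linear_combination h4
    rcases mul_eq_zero.1 this with h | h
    · left; linear_combination h
    · right; linear_combination h
  have hn1 : 2 - τ ≠ 0 := by
    intro h; apply h4; linear_combination (-τ - 2) * h
  by_cases hm1 : IsSquare (-1 : F)
  · obtain ⟨i, hi⟩ := hm1
    obtain ⟨Z, hZ, h1, h3⟩ := exists_Z X Y hX hY 1 (-2 / (2 - τ)) (i / (2 - τ)) (by ring) (by
      rw [← hτ]
      field_simp
      linear_combination (-(4 - τ ^ 2)) * hi)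
    refine ⟨Z, hZ, odd_of_tr2_two h2 (Or.inl ?_), odd_of_tr2_two h2 (Or.inl ?_)⟩
    · rw [h1, ← hτ]; field_simp
    · rw [h3, ← hτ]; field_simp
  by_cases hs : IsSquare (τ ^ 2 - 4)
  · obtain ⟨s, hs⟩ := hs
    apply triv
    have hs0 : s ≠ 0 := by
      rintro rfl; apply h4; rw [hs]; ring
    have hmul : (τ + s) / 2 * ((τ - s) / 2) = 1 := by
      field_simp
      linear_combination hs
    have hinv : ((τ + s) / 2)⁻¹ = (τ - s) / 2 := (eq_inv_of_mul_eq_one_right hmul).symm
    apply odd_of_split hm1 (u := (τ + s) / 2)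
    · intro h; rw [h, zero_mul] at hmul; exact zero_ne_one hmul
    · rw [hinv]
      intro h
      apply hs0
      field_simp at h
      have : (2 : F) * s = 0 := by linear_combination h
      exact (mul_eq_zero.1 this).resolve_left h2
    · rw [hinv, ← hτ]; field_simp; ring
  · obtain ⟨ε, u, hε, hu0, hP⟩ := exists_eps_u hm1 hq τ hs
    obtain ⟨r, hr⟩ := isSquare_neg_of_not hm1 hP
    have hnn : (2 - ε * τ) * (2 + ε * τ) = 4 - τ ^ 2 := by
      linear_combination (-τ ^ 2) * hε
    have hn : 2 - ε * τ ≠ 0 := by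
      intro h; apply h4; rw [h, zero_mul] at hnn; linear_combination hnn
    have hn' : 2 + ε * τ ≠ 0 := by
      intro h; apply h4; rw [h, mul_zero] at hnn; linear_combination hnn
    have hε0 : ε ≠ 0 := by
      rintro rfl; simp at hε
    have hεinv : ε⁻¹ = ε := (eq_inv_of_mul_eq_one_right hε).symm
    have huu : u ≠ u⁻¹ := by
      intro h
      have h1 : u ^ 2 = 1 := by
        rw [pow_two]; nth_rewrite 2 [h]; exact mul_inv_cancel₀ hu0
      apply hP
      refine ⟨2 + ε * τ, ?_⟩
      rw [h1]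
      linear_combination (2 + ε * τ) * hε
    obtain ⟨Z, hZ, h1, h3⟩ := exists_Z X Y hX hY ε (-(u + u⁻¹) / (2 - ε * τ))
      (r / (u * (2 - ε * τ) * (2 + ε * τ))) hε (by
      rw [← hτ, ← hnn]
      field_simp
      have e1 : r ^ 2 = r * r := by ring
      rw [e1, ← hr]
      linear_combination (-(u ^ 4 * (2 + ε * τ))) * hε)
    refine ⟨Z, hZ, odd_of_split hm1 hu0 huu ?_, odd_of_split hm1 (u := ε * u) (mul_ne_zero hε0 hu0) ?_ ?_⟩
    · rw [h1, ← hτ]; field_simp
    · rw [_root_.mul_inv, hεinv]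
      intro h
      exact huu (mul_left_cancel₀ hε0 h)
    · rw [h3, ← hτ, _root_.mul_inv, hεinv]; field_simp

end Cfsg.Agent.Lib.Helper41.OddGraph
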